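import Groth.Agent.FlatA.GenericFree2
import Groth.Agent.Ega43.NoethRed
import Mathlib.RingTheory.Spectrum.Prime.Chevalley
import Mathlib.RingTheory.Spectrum.Prime.Noetherian
import Mathlib.RingTheory.IsTensorProduct
import Mathlib.RingTheory.TensorProduct.Quotient
import Mathlib.RingTheory.Ideal.Quotient.Noetherian
import Mathlib.RingTheory.Finiteness.ModuleFinitePresentation
import Mathlib.Algebra.Category.Ring.Constructions

/-!
# Constructibility in the source of loci defined by fibrewise properties: algebraic form

A predicate `P` on primes `q` of algebras `A → B`, invariant under pushouts (base change).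

* `isConstructible_of_generic`: if for every Noetherian domain `A` and `B` of finite type over `A`
  the locus of `P` is constructible over some nonempty `D(a) ⊆ Spec A`, then for every `A → B` of
  finite presentation the locus of `P` in `Spec B` is constructible.
* `isConstructible_of_flat`: the same if the locus is open (or constructible) for
  `A` a Noetherian domain and `B` flat of finite type over `A`.
-/

set_option autoImplicit false

universe u

open TensorProduct Topology TopologicalSpace

namespace Groth.Agent.Ega4fib.H143.ConstrAlg

/-- Predicates on the primes of algebras. -/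
abbrev Pred : Type (u + 1) :=
  ∀ (A B : Type u) [CommRing A] [CommRing B] [Algebra A B], PrimeSpectrum B → Prop

/-- Invariance under base change (pushout squares). -/
def PushoutInv (P : Pred.{u}) : Prop :=
  ∀ (A A' B B' : Type u) [CommRing A] [CommRing A'] [CommRing B] [CommRing B'] [Algebra A A']
    [Algebra A B] [Algebra A' B'] [Algebra B B'] [Algebra A B'] [IsScalarTower A A' B']
    [IsScalarTower A B B'] [Algebra.IsPushout A A' B B'] [Algebra.FiniteType A B]
    (q' : PrimeSpectrum B'), P A' B' q' ↔ P A B (PrimeSpectrum.comap (algebraMap B B') q')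

variable {P : Pred.{u}}

/-- The Noetherian case, by Noetherian induction on the base. -/
theorem isConstructible_of_generic_of_noeth (hP : PushoutInv P)
    (H : ∀ (A B : Type u) [CommRing A] [CommRing B] [Algebra A B] [IsDomain A]
      [IsNoetherianRing A] [Algebra.FiniteType A B],
      ∃ a : A, a ≠ 0 ∧ IsConstructible {q : PrimeSpectrum B | algebraMap A B a ∉ q.asIdeal ∧ P A B q})
    (A B : Type u) [CommRing A] [CommRing B] [Algebra A B] [IsNoetherianRing A]
    [Algebra.FiniteType A B] : IsConstructible {q : PrimeSpectrum B | P A B q} := by
  have hB : IsNoetherianRing B := Algebra.FiniteType.isNoetherianRing A B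
  have key : ∀ I : Ideal A, IsConstructible
      {q : PrimeSpectrum B | I ≤ q.asIdeal.comap (algebraMap A B) ∧ P A B q} := by
    intro I
    induction I using IsNoetherian.induction with
    | hgt I ih =>
    by_cases htop : I = ⊤
    · convert IsConstructible.empty
      rw [Set.eq_empty_iff_forall_notMem]
      rintro q ⟨hq, -⟩
      rw [htop, top_le_iff] at hq
      exact Ideal.IsPrime.ne_top' hq
    by_cases hprime : Ideal.IsPrime I
    · let A' := A ⧸ I
      let B' := B ⧸ (Ideal.map (algebraMap A B) I)
      have hsm : ∀ x ∈ I, algebraMap A B' x = 0 := by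
        intro x hx
        rw [IsScalarTower.algebraMap_apply A B B', Ideal.Quotient.algebraMap_eq,
          Ideal.Quotient.eq_zero_iff_mem]
        exact Ideal.mem_map_of_mem _ hx
      have hpo : Algebra.IsPushout A A' B B' :=
        ⟨IsBaseChange.of_equiv
          (Algebra.TensorProduct.quotIdealMapEquivQuotTensor B I).symm.toLinearEquiv
          fun b => by
            change (Algebra.TensorProduct.quotIdealMapEquivQuotTensor B I).symm (1 ⊗ₜ b) = _
            rw [← Algebra.TensorProduct.quotIdealMapEquivQuotTensor_mk, AlgEquiv.symm_apply_apply]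
            rfl⟩
      have hft : Algebra.FiniteType A B' := inferInstance
      have hft' : Algebra.FiniteType A' B' := Algebra.FiniteType.of_restrictScalars_finiteType A A' B'
      obtain ⟨a', ha', hcons⟩ := H A' B'
      obtain ⟨a, rfl⟩ := Ideal.Quotient.mk_surjective a'
      have haI : a ∉ I := fun h => ha' (Ideal.Quotient.eq_zero_iff_mem.mpr h)
      have hlt : I < I ⊔ Ideal.span {a} := by
        refine lt_of_le_of_ne le_sup_left fun h => haI ?_
        rw [h]
        exact Ideal.mem_sup_right (Ideal.mem_span_singleton_self a)
      have h1 := ih _ hlt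
      have h2 := PrimeSpectrum.isConstructible_comap_image (f := algebraMap B B')
        (RingHom.finitePresentation_algebraMap.mpr
          (Algebra.FinitePresentation.of_finiteType.mp inferInstance)) hcons
      have h3 : {q : PrimeSpectrum B | I ≤ q.asIdeal.comap (algebraMap A B) ∧ P A B q} =
          {q : PrimeSpectrum B | I ⊔ Ideal.span {a} ≤ q.asIdeal.comap (algebraMap A B) ∧ P A B q} ∪
          PrimeSpectrum.comap (algebraMap B B') '' {q : PrimeSpectrum B' |
            algebraMap A' B' (Ideal.Quotient.mk I a) ∉ q.asIdeal ∧ P A' B' q} := by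
        ext q
        simp only [Set.mem_union, Set.mem_ofPred_eq, Set.mem_image, sup_le_iff,
          Ideal.span_singleton_le_iff_mem]
        constructor
        · rintro ⟨hI, hPq⟩
          by_cases ha : a ∈ q.asIdeal.comap (algebraMap A B)
          · exact Or.inl ⟨⟨hI, ha⟩, hPq⟩
          · right
            have hr : q ∈ Set.range (PrimeSpectrum.comap (algebraMap B B')) := by
              rw [range_comap_of_surjective _ (algebraMap B B') Ideal.Quotient.mk_surjective]
              rw [PrimeSpectrum.mem_zeroLocus, SetLike.coe_subset_coe]
              intro x hx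
              rw [Ideal.Quotient.algebraMap_eq, Ideal.mk_ker] at hx
              exact (Ideal.map_le_iff_le_comap.mpr hI) hx
            obtain ⟨q', rfl⟩ := hr
            exact ⟨q', ⟨ha, (hP A A' B B' q').mpr hPq⟩, rfl⟩
        · rintro (⟨⟨hI, ha⟩, hPq⟩ | ⟨q', ⟨ha, hPq⟩, rfl⟩)
          · exact ⟨hI, hPq⟩
          · refine ⟨?_, (hP A A' B B' q').mp hPq⟩
            intro x hx
            have : algebraMap A B' x = 0 := hsm x hx
            change algebraMap A B' x ∈ q'.asIdeal
            rw [this]
            exact Ideal.zero_mem _
      rw [h3]
      exact h1.union h2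
    · -- `I` is not prime
      rw [Ideal.isPrime_iff] at hprime
      push Not at hprime
      obtain ⟨x, y, hxy, hx, hy⟩ := hprime htop
      have hlt : ∀ z ∉ I, I < I ⊔ Ideal.span {z} := by
        intro z hz
        refine lt_of_le_of_ne le_sup_left fun h => hz ?_
        rw [h]
        exact Ideal.mem_sup_right (Ideal.mem_span_singleton_self z)
      have h3 : {q : PrimeSpectrum B | I ≤ q.asIdeal.comap (algebraMap A B) ∧ P A B q} =
          {q : PrimeSpectrum B | I ⊔ Ideal.span {x} ≤ q.asIdeal.comap (algebraMap A B) ∧ P A B q} ∪
          {q : PrimeSpectrum B | I ⊔ Ideal.span {y} ≤ q.asIdeal.comap (algebraMap A B) ∧ P A B q} := by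
        ext q
        simp only [Set.mem_union, Set.mem_ofPred_eq, sup_le_iff, Ideal.span_singleton_le_iff_mem]
        constructor
        · rintro ⟨hI, hPq⟩
          have : (q.asIdeal.comap (algebraMap A B)).IsPrime := inferInstance
          rcases this.mem_or_mem (hI hxy) with h | h
          · exact Or.inl ⟨⟨hI, h⟩, hPq⟩
          · exact Or.inr ⟨⟨hI, h⟩, hPq⟩
        · rintro (⟨⟨hI, -⟩, hPq⟩ | ⟨⟨hI, -⟩, hPq⟩)
          · exact ⟨hI, hPq⟩
          · exact ⟨hI, hPq⟩
      rw [h3]
      exact (ih _ (hlt x hx)).union (ih _ (hlt y hy))
  simpa using key ⊥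

/-- Preimages of constructible sets under maps of spectra are constructible. -/
theorem isConstructible_preimage_comap {R S : Type*} [CommRing R] [CommRing S] (f : R →+* S)
    {s : Set (PrimeSpectrum R)} (hs : IsConstructible s) :
    IsConstructible (PrimeSpectrum.comap f ⁻¹' s) := by
  obtain ⟨V', hV'⟩ := PrimeSpectrum.exists_constructibleSetData_iff.mpr hs
  rw [← hV', ← PrimeSpectrum.ConstructibleSetData.toSet_map]
  exact PrimeSpectrum.ConstructibleSetData.isConstructible_toSet _

/-- Reduction to the Noetherian case: for any algebra of finite presentation the locus of `P` is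
constructible. -/
theorem isConstructible_of_noeth (hP : PushoutInv P)
    (H : ∀ (A B : Type u) [CommRing A] [CommRing B] [Algebra A B] [IsNoetherianRing A]
      [Algebra.FiniteType A B], IsConstructible {q : PrimeSpectrum B | P A B q})
    (A B : Type u) [CommRing A] [CommRing B] [Algebra A B] [Algebra.FinitePresentation A B] :
    IsConstructible {q : PrimeSpectrum B | P A B q} := by
  obtain ⟨t, ht, Ht⟩ := Ega43.NoethRed.exists_model (A := A) (D := B) Set.finite_empty
  obtain ⟨A₀, _, _, h1, h2⟩ := Ega43.NoethRed.exists_noetherian ht
  obtain ⟨B₀, _, _, _, h3, -, h5⟩ := Ht A₀ h2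
  let _ : Algebra A₀ B := ((algebraMap A B).comp (algebraMap A₀ A)).toAlgebra
  have i1 : IsScalarTower A₀ A B := IsScalarTower.of_algebraMap_eq fun _ => rfl
  have i2 : IsScalarTower A₀ B₀ B := IsScalarTower.of_algebraMap_eq fun x =>
    (congr($(h5.w).hom x)).symm
  have hpo : Algebra.IsPushout A₀ A B₀ B := (CommRingCat.isPushout_iff_isPushout.mp h5).symm
  have h7 : {q : PrimeSpectrum B | P A B q} =
      PrimeSpectrum.comap (algebraMap B₀ B) ⁻¹' {q : PrimeSpectrum B₀ | P A₀ B₀ q} := by
    ext q
    exact hP A₀ A B₀ B q
  rw [h7]
  exact isConstructible_preimage_comap _ (H A₀ B₀)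

/-- If for every Noetherian domain `A` and `B` of finite type over `A` the locus of `P` is
constructible over some nonempty `D(a) ⊆ Spec A`, then for every `A → B` of finite presentation
the locus of `P` in `Spec B` is constructible. -/
theorem isConstructible_of_generic (hP : PushoutInv P)
    (H : ∀ (A B : Type u) [CommRing A] [CommRing B] [Algebra A B] [IsDomain A]
      [IsNoetherianRing A] [Algebra.FiniteType A B],
      ∃ a : A, a ≠ 0 ∧ IsConstructible {q : PrimeSpectrum B | algebraMap A B a ∉ q.asIdeal ∧ P A B q})
    (A B : Type u) [CommRing A] [CommRing B] [Algebra A B] [Algebra.FinitePresentation A B] :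
    IsConstructible {q : PrimeSpectrum B | P A B q} :=
  isConstructible_of_noeth hP (fun A B _ _ _ _ _ => isConstructible_of_generic_of_noeth hP H A B) A B

/-- If for every Noetherian domain `A` and `B` free and of finite type over `A` the locus
of `P` is constructible, then for every `A → B` of finite presentation
the locus of `P` in `Spec B` is constructible. -/
theorem isConstructible_of_free (hP : PushoutInv P)
    (H : ∀ (A B : Type u) [CommRing A] [CommRing B] [Algebra A B] [IsDomain A]
      [IsNoetherianRing A] [Algebra.FiniteType A B] [Module.Free A B],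
      IsConstructible {q : PrimeSpectrum B | P A B q})
    (A B : Type u) [CommRing A] [CommRing B] [Algebra A B] [Algebra.FinitePresentation A B] :
    IsConstructible {q : PrimeSpectrum B | P A B q} := by
  refine isConstructible_of_generic hP ?_ A B
  intro A B _ _ _ _ _ _
  obtain ⟨f, hf, hfree⟩ := FlatA.GenericFree.genFree_of_finiteType (R := A) B B
  refine ⟨f, hf, ?_⟩
  let A' := Localization.Away f
  let B' := A' ⊗[A] B
  let _ : Algebra B B' := Algebra.TensorProduct.rightAlgebra
  have hfree' : Module.Free A' B' := hfree.free_tensor A'
  have hdom : IsDomain A' := IsLocalization.isDomain_localization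
    (powers_le_nonZeroDivisors_of_noZeroDivisors hf)
  have hN : IsNoetherianRing A' := IsLocalization.isNoetherianRing (Submonoid.powers f) A' ‹_›
  have hpo : Algebra.IsPushout A A' B B' := inferInstance
  have hloc : IsLocalization (Algebra.algebraMapSubmonoid B (Submonoid.powers f)) B' :=
    (Algebra.isLocalization_iff_isPushout (Submonoid.powers f) A').mpr hpo.symm
  have hloc' : IsLocalization.Away (algebraMap A B f) B' := by
    rwa [Algebra.algebraMapSubmonoid_powers] at hloc
  have h1 := H A' B'
  have hfp : Algebra.FinitePresentation B B' :=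
    IsLocalization.Away.finitePresentation (algebraMap A B f)
  have h2 := PrimeSpectrum.isConstructible_comap_image (f := algebraMap B B')
    (RingHom.finitePresentation_algebraMap.mpr hfp) h1
  convert h2 using 1
  ext q
  simp only [Set.mem_ofPred_eq, Set.mem_image]
  constructor
  · rintro ⟨hfq, hq⟩
    have hr : q ∈ Set.range (PrimeSpectrum.comap (algebraMap B B')) := by
      rw [PrimeSpectrum.localization_away_comap_range B' (algebraMap A B f)]
      exact hfq
    obtain ⟨q', rfl⟩ := hr
    exact ⟨q', (hP A A' B B' q').mpr hq, rfl⟩
  · rintro ⟨q', hq', rfl⟩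
    refine ⟨?_, (hP A A' B B' q').mp hq'⟩
    have hr : PrimeSpectrum.comap (algebraMap B B') q' ∈
      Set.range (PrimeSpectrum.comap (algebraMap B B')) := ⟨q', rfl⟩
    rw [PrimeSpectrum.localization_away_comap_range B' (algebraMap A B f)] at hr
    exact hr

/-- If for every Noetherian domain `A` and `B` flat and of finite type over `A` the locus
of `P` is open, then for every `A → B` of finite presentation
the locus of `P` in `Spec B` is constructible. -/
theorem isConstructible_of_flat_isOpen (hP : PushoutInv P)
    (H : ∀ (A B : Type u) [CommRing A] [CommRing B] [Algebra A B] [IsDomain A]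
      [IsNoetherianRing A] [Algebra.FinitePresentation A B] [Module.Flat A B],
      IsOpen {q : PrimeSpectrum B | P A B q})
    (A B : Type u) [CommRing A] [CommRing B] [Algebra A B] [Algebra.FinitePresentation A B] :
    IsConstructible {q : PrimeSpectrum B | P A B q} := by
  refine isConstructible_of_free hP ?_ A B
  intro A B _ _ _ _ _ _ _
  have hB : IsNoetherianRing B := Algebra.FiniteType.isNoetherianRing A B
  have hfp : Algebra.FinitePresentation A B := Algebra.FinitePresentation.of_finiteType.mp ‹_›
  have h := H A B
  exact (NoetherianSpace.isCompact _).isConstructible h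

end Groth.Agent.Ega4fib.H143.ConstrAlg
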