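import Groth.Agent.Ega4fib.H143.LocalPred
import Groth.Agent.Ega43.FibSch1
import Mathlib.AlgebraicGeometry.Morphisms.FinitePresentation

/-!
# Constructibility in the source of loci defined by fibrewise properties: morphisms of schemes

* `isLocallyConstructible_of_affine` : for a set `E` of points of `X`, given on affine opens by a predicate
  `P` on algebras whose locus is constructible for all algebras of finite presentation.
* `isLocallyConstructible_of_pred` : the general criterion for predicates on morphisms of affine schemes.
* `isLocallyConstructible_of_local` : the criterion for properties of the local rings of the fibres.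
-/

set_option autoImplicit false

universe u

open TensorProduct CategoryTheory AlgebraicGeometry Topology

namespace Groth.Agent.Ega4fib.H143.ConstrSch

open ConstrAlg FieldPred LocalPred

variable {X S : Scheme.{u}} (f : X ⟶ S)

/-- A set of points of `X` given on affine opens by a predicate whose locus is always constructible
is locally constructible. -/
theorem isLocallyConstructible_of_affine [LocallyOfFinitePresentation f] (E : Set X) (P : Pred.{u})
    (H : ∀ (A B : Type u) [CommRing A] [CommRing B] [Algebra A B] [Algebra.FinitePresentation A B],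
      IsConstructible {q : PrimeSpectrum B | P A B q})
    (key : ∀ {V : S.Opens} (_ : IsAffineOpen V) {W : X.Opens} (hW : IsAffineOpen W)
      (e : W ≤ f ⁻¹ᵁ V) [Algebra Γ(S, V) Γ(X, W)]
      (_ : algebraMap Γ(S, V) Γ(X, W) = (f.appLE V W e).hom) (x : X) (hx : x ∈ W),
      x ∈ E ↔ P Γ(S, V) Γ(X, W) (hW.primeIdealOf ⟨x, hx⟩)) :
    IsLocallyConstructible E := by
  intro x
  obtain ⟨V, hV, hxV, -⟩ := exists_isAffineOpen_mem_and_subset (U := (⊤ : S.Opens))
    (x := f x) (by trivial)
  obtain ⟨W, hW, hxW, e⟩ := exists_isAffineOpen_mem_and_subset (U := f ⁻¹ᵁ V) (x := x) hxV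
  let _ : Algebra Γ(S, V) Γ(X, W) := (f.appLE V W e).hom.toAlgebra
  have hfp : Algebra.FinitePresentation Γ(S, V) Γ(X, W) := f.finitePresentation_appLE hV hW e
  refine ⟨W, W.2.mem_nhds hxW, W.2, ?_⟩
  have h := (H Γ(S, V) Γ(X, W)).preimage_of_isOpenEmbedding hW.isoSpec.hom.isOpenEmbedding
  convert! h using 1
  ext y
  exact key hV hW e rfl y.1 y.2

/-- The criterion for properties of the local rings of the fibres, from the affine case. -/
theorem isLocallyConstructible_of_local_affine [LocallyOfFinitePresentation f]
    (G : ∀ (R : Type u) [CommRing R], Prop)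
    (hG : ∀ (R S : Type u) [CommRing R] [CommRing S], (R ≃+* S) → G R → G S)
    (H : ∀ (A B : Type u) [CommRing A] [CommRing B] [Algebra A B] [Algebra.FinitePresentation A B],
      IsConstructible {q : PrimeSpectrum B | G (EGA4.FibLocRing A B q.asIdeal)}) :
    IsLocallyConstructible
      {x : X | G ((f.fiber (f.base x)).presheaf.stalk (f.asFiber x))} := by
  refine isLocallyConstructible_of_affine f _
    (fun A B _ _ _ q => G (EGA4.FibLocRing A B q.asIdeal)) H ?_
  intro V hV W hW e _ halg x hx
  obtain ⟨E⟩ := Ega43.FibSch1.nonempty_fibLocRing_equiv f hV hW e halg x hx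
  exact ⟨hG _ _ E.symm, hG _ _ E⟩

/-- The criterion for properties `G` of the local rings of the fibres: invariance under field
extensions, and openness of the locus for flat algebras of finite presentation over Noetherian
domains. -/
theorem isLocallyConstructible_of_local [LocallyOfFinitePresentation f]
    (G : ∀ (R : Type u) [CommRing R], Prop)
    (hG : ∀ (R S : Type u) [CommRing R] [CommRing S], (R ≃+* S) → G R → G S)
    (hbc : ∀ (K R L : Type u) [Field K] [CommRing R] [Algebra K R] [Field L] [Algebra K L]
      [Algebra.FiniteType K R] (q : Ideal (R ⊗[K] L)) [q.IsPrime],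
      G (Localization.AtPrime (q.comap (algebraMap R (R ⊗[K] L)))) ↔ G (Localization.AtPrime q))
    (H : ∀ (A B : Type u) [CommRing A] [CommRing B] [Algebra A B] [IsDomain A]
      [IsNoetherianRing A] [Algebra.FinitePresentation A B] [Module.Flat A B],
      IsOpen {q : PrimeSpectrum B | G (EGA4.FibLocRing A B q.asIdeal)}) :
    IsLocallyConstructible
      {x : X | G ((f.fiber (f.base x)).presheaf.stalk (f.asFiber x))} :=
  isLocallyConstructible_of_local_affine f G hG
    (isConstructible_of_flat_isOpen (pushoutInv_of_local hG hbc) H)

/-- Variant with constructibility instead of openness. -/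
theorem isLocallyConstructible_of_local' [LocallyOfFinitePresentation f]
    (G : ∀ (R : Type u) [CommRing R], Prop)
    (hG : ∀ (R S : Type u) [CommRing R] [CommRing S], (R ≃+* S) → G R → G S)
    (hbc : ∀ (K R L : Type u) [Field K] [CommRing R] [Algebra K R] [Field L] [Algebra K L]
      [Algebra.FiniteType K R] (q : Ideal (R ⊗[K] L)) [q.IsPrime],
      G (Localization.AtPrime (q.comap (algebraMap R (R ⊗[K] L)))) ↔ G (Localization.AtPrime q))
    (H : ∀ (A B : Type u) [CommRing A] [CommRing B] [Algebra A B] [IsDomain A]
      [IsNoetherianRing A] [Algebra.FiniteType A B] [Module.Free A B],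
      IsConstructible {q : PrimeSpectrum B | G (EGA4.FibLocRing A B q.asIdeal)}) :
    IsLocallyConstructible
      {x : X | G ((f.fiber (f.base x)).presheaf.stalk (f.asFiber x))} :=
  isLocallyConstructible_of_local_affine f G hG
    (isConstructible_of_free (pushoutInv_of_local hG hbc) H)

end Groth.Agent.Ega4fib.H143.ConstrSch
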