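import Groth.Agent.Ega4fib.H143.ConstrAlg
import Groth.Agent.Ega4C.FibreTower
import Mathlib.RingTheory.LocalRing.ResidueField.Fiber
import Mathlib.RingTheory.IsTensorProduct

/-!
# Fibrewise predicates coming from predicates on algebras over fields

`ofField F A B q`: the predicate `F` for the `κ(p)`-algebra `κ(p) ⊗_A B` at the prime corresponding
to `q`, where `p` is the contraction of `q`.
`pushoutInv_ofField`: if `F` is invariant under field extensions then `ofField F` is invariant
under base change.
`pushoutInv_of_local`: the version for properties of local rings, stated for `EGA4.FibLocRing`.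
-/

set_option autoImplicit false

universe u

open TensorProduct

namespace Groth.Agent.Ega4fib.H143.FieldPred

open ConstrAlg

/-- Predicates on primes of algebras over fields. -/
abbrev FPred : Type (u + 1) :=
  ∀ (K R : Type u) [Field K] [CommRing R] [Algebra K R], PrimeSpectrum R → Prop

/-- Invariance under isomorphisms and extension of the base field. -/
structure FieldInv (F : FPred.{u}) : Prop where
  equiv : ∀ (K R R' : Type u) [Field K] [CommRing R] [CommRing R'] [Algebra K R] [Algebra K R']
    [Algebra.FiniteType K R] (e : R ≃ₐ[K] R') (q : PrimeSpectrum R'),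
    F K R' q ↔ F K R (PrimeSpectrum.comap (e : R →+* R') q)
  baseChange : ∀ (K L R : Type u) [Field K] [Field L] [Algebra K L] [CommRing R] [Algebra K R]
    [Algebra.FiniteType K R] (q : PrimeSpectrum (L ⊗[K] R)),
    F L (L ⊗[K] R) q ↔ F K R (PrimeSpectrum.comap
      (Algebra.TensorProduct.includeRight : R →ₐ[K] L ⊗[K] R).toRingHom q)

section

variable (A B : Type u) [CommRing A] [CommRing B] [Algebra A B]

/-- The point of the fibre ring corresponding to a prime. -/
noncomputable def fibPt (q : PrimeSpectrum B) :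
    PrimeSpectrum ((q.asIdeal.comap (algebraMap A B)).Fiber B) :=
  PrimeSpectrum.primesOverOrderIsoFiber A B (q.asIdeal.comap (algebraMap A B))
    ⟨q.asIdeal, q.2, ⟨rfl⟩⟩

theorem comap_fibPt (q : PrimeSpectrum B) :
    PrimeSpectrum.comap (Algebra.TensorProduct.includeRight :
      B →ₐ[A] (q.asIdeal.comap (algebraMap A B)).Fiber B).toRingHom (fibPt A B q) = q := by
  have h := congrArg Subtype.val
    ((PrimeSpectrum.primesOverOrderIsoFiber A B (q.asIdeal.comap (algebraMap A B))).symm_apply_apply
      ⟨q.asIdeal, q.2, ⟨rfl⟩⟩)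
  exact PrimeSpectrum.ext h

/-- Primes of the fibre ring are determined by their contractions. -/
theorem fiber_comap_injective (p : Ideal A) [p.IsPrime] :
    Function.Injective (PrimeSpectrum.comap
      (Algebra.TensorProduct.includeRight : B →ₐ[A] p.Fiber B).toRingHom) := by
  intro x y h
  apply (PrimeSpectrum.primesOverOrderIsoFiber A B p).symm.injective
  exact Subtype.ext (congrArg PrimeSpectrum.asIdeal h)

end

/-- The fibrewise predicate attached to a predicate on algebras over fields. -/
def ofField (F : FPred.{u}) : Pred.{u} := fun A B _ _ _ q =>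
  F (q.asIdeal.comap (algebraMap A B)).ResidueField
    ((q.asIdeal.comap (algebraMap A B)).Fiber B) (fibPt A B q)

theorem fiber_congr (F : FPred.{u}) (A B : Type u) [CommRing A] [CommRing B] [Algebra A B]
    (p p' : Ideal A) [p.IsPrime] [p'.IsPrime] (hp : p = p') (Q : PrimeSpectrum (p.Fiber B))
    (Q' : PrimeSpectrum (p'.Fiber B))
    (hc : PrimeSpectrum.comap (Algebra.TensorProduct.includeRight : B →ₐ[A] p.Fiber B).toRingHom Q =
      PrimeSpectrum.comap (Algebra.TensorProduct.includeRight : B →ₐ[A] p'.Fiber B).toRingHom Q') :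
    F p.ResidueField (p.Fiber B) Q ↔ F p'.ResidueField (p'.Fiber B) Q' := by
  subst hp
  obtain rfl := fiber_comap_injective A B p hc
  rfl

/-- Computing `ofField F` with any prime of any fibre ring. -/
theorem ofField_iff (F : FPred.{u}) (A B : Type u) [CommRing A] [CommRing B] [Algebra A B]
    (p : Ideal A) [p.IsPrime] (Q : PrimeSpectrum (p.Fiber B)) (q : PrimeSpectrum B)
    (hq : PrimeSpectrum.comap (Algebra.TensorProduct.includeRight : B →ₐ[A] p.Fiber B).toRingHom Q = q) :
    ofField F A B q ↔ F p.ResidueField (p.Fiber B) Q := by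
  subst hq
  have hp : (PrimeSpectrum.comap (Algebra.TensorProduct.includeRight :
      B →ₐ[A] p.Fiber B).toRingHom Q).asIdeal.comap (algebraMap A B) = p :=
    Ega4C.FibreTower.ctr_comap p Q.asIdeal
  unfold ofField
  refine fiber_congr F A B _ p hp (fibPt A B _) Q ?_
  exact comap_fibPt A B _

/-- Base change of fibre rings. -/
noncomputable def fiberEquiv (A A' B B' : Type u) [CommRing A] [CommRing A'] [CommRing B]
    [CommRing B'] [Algebra A A'] [Algebra A B] [Algebra A' B'] [Algebra B B'] [Algebra A B']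
    [IsScalarTower A A' B'] [IsScalarTower A B B'] [Algebra.IsPushout A A' B B']
    (P : Ideal A') [P.IsPrime] (k : Type u) [Field k] [Algebra A k] [Algebra k P.ResidueField]
    [IsScalarTower A k P.ResidueField] :
    P.Fiber B' ≃ₐ[P.ResidueField] P.ResidueField ⊗[k] (k ⊗[A] B) :=
  (Algebra.TensorProduct.congr (AlgEquiv.refl : P.ResidueField ≃ₐ[P.ResidueField] P.ResidueField)
      (Algebra.IsPushout.equiv A A' B B').symm).trans
    ((Algebra.TensorProduct.cancelBaseChange A A' P.ResidueField P.ResidueField B).trans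
      (Algebra.TensorProduct.cancelBaseChange A k P.ResidueField P.ResidueField B).symm)

theorem fiberEquiv_one_tmul (A A' B B' : Type u) [CommRing A] [CommRing A'] [CommRing B]
    [CommRing B'] [Algebra A A'] [Algebra A B] [Algebra A' B'] [Algebra B B'] [Algebra A B']
    [IsScalarTower A A' B'] [IsScalarTower A B B'] [Algebra.IsPushout A A' B B']
    (P : Ideal A') [P.IsPrime] (k : Type u) [Field k] [Algebra A k] [Algebra k P.ResidueField]
    [IsScalarTower A k P.ResidueField] (b : B) :
    fiberEquiv A A' B B' P k (1 ⊗ₜ[A'] (algebraMap B B' b)) = 1 ⊗ₜ[k] (1 ⊗ₜ[A] b) := by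
  unfold fiberEquiv
  simp [Algebra.IsPushout.equiv_symm_algebraMap_right]

theorem exists_fiber_iff_aux {F : FPred.{u}} (hF : FieldInv F) (A A' B B' : Type u) [CommRing A]
    [CommRing A'] [CommRing B] [CommRing B'] [Algebra A A'] [Algebra A B] [Algebra A' B']
    [Algebra B B'] [Algebra A B'] [IsScalarTower A A' B'] [IsScalarTower A B B']
    [Algebra.IsPushout A A' B B'] [Algebra.FiniteType A B]
    (P : Ideal A') [P.IsPrime] (k : Type u) [Field k] [Algebra A k] [Algebra k P.ResidueField]
    [IsScalarTower A k P.ResidueField] (Q' : PrimeSpectrum (P.Fiber B')) :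
    ∃ Q : PrimeSpectrum (k ⊗[A] B),
      PrimeSpectrum.comap (Algebra.TensorProduct.includeRight : B →ₐ[A] k ⊗[A] B).toRingHom Q =
        PrimeSpectrum.comap (algebraMap B B') (PrimeSpectrum.comap
          (Algebra.TensorProduct.includeRight : B' →ₐ[A'] P.Fiber B').toRingHom Q') ∧
      (F P.ResidueField (P.Fiber B') Q' ↔ F k (k ⊗[A] B) Q) := by
  have hft : Algebra.FiniteType A' B' := Algebra.FiniteType.equiv inferInstance
    (Algebra.IsPushout.equiv A A' B B')
  let e := fiberEquiv A A' B B' P k
  refine ⟨PrimeSpectrum.comap (Algebra.TensorProduct.includeRight :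
    (k ⊗[A] B) →ₐ[k] P.ResidueField ⊗[k] (k ⊗[A] B)).toRingHom
      (PrimeSpectrum.comap (e.symm : P.ResidueField ⊗[k] (k ⊗[A] B) →+* P.Fiber B') Q'), ?_, ?_⟩
  · apply PrimeSpectrum.ext
    ext b
    have h : e.symm (1 ⊗ₜ[k] (1 ⊗ₜ[A] b)) = (1 ⊗ₜ[A'] (algebraMap B B' b)) := by
      rw [AlgEquiv.symm_apply_eq]
      exact (fiberEquiv_one_tmul A A' B B' P k b).symm
    change e.symm (1 ⊗ₜ[k] (1 ⊗ₜ[A] b)) ∈ Q'.asIdeal ↔ (1 ⊗ₜ[A'] (algebraMap B B' b)) ∈ Q'.asIdeal
    rw [h]
  · rw [hF.equiv _ _ _ e.symm Q', hF.baseChange]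

theorem exists_fiber_iff {F : FPred.{u}} (hF : FieldInv F) (A A' B B' : Type u) [CommRing A]
    [CommRing A'] [CommRing B] [CommRing B'] [Algebra A A'] [Algebra A B] [Algebra A' B']
    [Algebra B B'] [Algebra A B'] [IsScalarTower A A' B'] [IsScalarTower A B B']
    [Algebra.IsPushout A A' B B'] [Algebra.FiniteType A B]
    (p : Ideal A) [p.IsPrime] (P : Ideal A') [P.IsPrime] [P.LiesOver p]
    (Q' : PrimeSpectrum (P.Fiber B')) :
    ∃ Q : PrimeSpectrum (p.Fiber B),
      PrimeSpectrum.comap (Algebra.TensorProduct.includeRight : B →ₐ[A] p.Fiber B).toRingHom Q =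
        PrimeSpectrum.comap (algebraMap B B') (PrimeSpectrum.comap
          (Algebra.TensorProduct.includeRight : B' →ₐ[A'] P.Fiber B').toRingHom Q') ∧
      (F P.ResidueField (P.Fiber B') Q' ↔ F p.ResidueField (p.Fiber B) Q) := by
  let := Localization.AtPrime.algebraOfLiesOver p P
  exact exists_fiber_iff_aux hF A A' B B' P p.ResidueField Q'

/-- Base change invariance of `ofField F`. -/
theorem pushoutInv_ofField {F : FPred.{u}} (hF : FieldInv F) : PushoutInv (ofField F) := by
  intro A A' B B' _ _ _ _ _ _ _ _ _ _ _ hpo _ q'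
  obtain ⟨Q, h1, h2⟩ := exists_fiber_iff hF A A' B B'
    ((q'.asIdeal.comap (algebraMap A' B')).comap (algebraMap A A'))
    (q'.asIdeal.comap (algebraMap A' B')) (fibPt A' B' q')
  rw [comap_fibPt] at h1
  rw [ofField_iff F A B _ Q _ h1]
  exact h2

end Groth.Agent.Ega4fib.H143.FieldPred
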