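import Groth.Agent.Ega4fib.H143.FieldPred

/-!
# Fibrewise predicates given by properties of the local rings of the fibres

`pushoutInv_of_local` : for a property `G` of (local) rings, invariant under isomorphisms and such that
for an algebra `R` of finite type over a field `K` and a field extension `L / K`, `G` holds at a
prime `q` of `R ⊗[K] L` iff it holds at the contraction of `q` to `R`, the predicate
`G (EGA4.FibLocRing A B q)` is invariant under base change.
-/

set_option autoImplicit false

universe u

open TensorProduct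

namespace Groth.Agent.Ega4fib.H143.LocalPred

open ConstrAlg FieldPred

variable {G : ∀ (R : Type u) [CommRing R], Prop}

theorem atPrime_comap_iff (hG : ∀ (R S : Type u) [CommRing R] [CommRing S], (R ≃+* S) → G R → G S)
    {R R' : Type u} [CommRing R] [CommRing R'] (e : R ≃+* R') (q : Ideal R') [q.IsPrime] :
    G (Localization.AtPrime q) ↔ G (Localization.AtPrime (q.comap (e : R →+* R'))) := by
  have e1 : Localization.AtPrime (q.comap (e : R →+* R')) ≃+* Localization.AtPrime q :=
    Localization.localRingEquiv (q.comap (e : R →+* R')) q e rfl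
  exact ⟨hG _ _ e1.symm, hG _ _ e1⟩

theorem fieldInv_of_local (hG : ∀ (R S : Type u) [CommRing R] [CommRing S], (R ≃+* S) → G R → G S)
    (hbc : ∀ (K R L : Type u) [Field K] [CommRing R] [Algebra K R] [Field L] [Algebra K L]
      [Algebra.FiniteType K R] (q : Ideal (R ⊗[K] L)) [q.IsPrime],
      G (Localization.AtPrime (q.comap (algebraMap R (R ⊗[K] L)))) ↔ G (Localization.AtPrime q)) :
    FieldInv (fun K R _ _ _ Q => G (Localization.AtPrime Q.asIdeal)) where
  equiv K R R' _ _ _ _ _ _ e q := atPrime_comap_iff hG e.toRingEquiv q.asIdeal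
  baseChange K L R _ _ _ _ _ _ q := by
    have h1 := atPrime_comap_iff hG (Algebra.TensorProduct.comm K R L).toRingEquiv q.asIdeal
    rw [h1, ← hbc]
    rfl

theorem ofField_iff_fibLocRing
    (hG : ∀ (R S : Type u) [CommRing R] [CommRing S], (R ≃+* S) → G R → G S)
    (A B : Type u) [CommRing A] [CommRing B] [Algebra A B] (q : PrimeSpectrum B) :
    ofField (fun K R _ _ _ Q => G (Localization.AtPrime Q.asIdeal)) A B q ↔
      G (EGA4.FibLocRing A B q.asIdeal) := by
  have h1 := comap_fibPt A B q
  have e := Ega4C.FibreTower.locFibreEquiv (q.asIdeal.comap (algebraMap A B)) (fibPt A B q).asIdeal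
  have h2 : Ega4C.FibreTower.ctr (q.asIdeal.comap (algebraMap A B)) (fibPt A B q).asIdeal =
    q.asIdeal := congrArg PrimeSpectrum.asIdeal h1
  have h3 : ∀ (q₁ q₂ : Ideal B) [q₁.IsPrime] [q₂.IsPrime] (_ : q₁ = q₂),
      G (EGA4.FibLocRing A B q₁) ↔ G (EGA4.FibLocRing A B q₂) := by
    intro q₁ q₂ _ _ h
    subst h
    rfl
  rw [← h3 _ _ h2]
  exact ⟨hG _ _ e, hG _ _ e.symm⟩

/-- Base change invariance of properties of the local rings of fibres. -/
theorem pushoutInv_of_local
    (hG : ∀ (R S : Type u) [CommRing R] [CommRing S], (R ≃+* S) → G R → G S)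
    (hbc : ∀ (K R L : Type u) [Field K] [CommRing R] [Algebra K R] [Field L] [Algebra K L]
      [Algebra.FiniteType K R] (q : Ideal (R ⊗[K] L)) [q.IsPrime],
      G (Localization.AtPrime (q.comap (algebraMap R (R ⊗[K] L)))) ↔ G (Localization.AtPrime q)) :
    PushoutInv (fun A B _ _ _ q => G (EGA4.FibLocRing A B q.asIdeal)) := by
  intro A A' B B' _ _ _ _ _ _ _ _ _ _ _ hpo _ q'
  have h := pushoutInv_ofField (fieldInv_of_local hG hbc) A A' B B' q'
  rwa [ofField_iff_fibLocRing hG, ofField_iff_fibLocRing hG] at h

end Groth.Agent.Ega4fib.H143.LocalPred
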